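import Mathlib
import Cfsg.Agent.Hay.JacAut

/-!
# Elementary facts on `SL₂(F)` for `F` of characteristic three in which `-1` is not a square
-/

set_option autoImplicit false
open scoped MatrixGroups

namespace Cfsg.Agent.Hay

variable {F : Type*} [Field F]

/-- characteristic three, `-1` is not a square, more than three elements -/
structure Fd (F : Type*) [Field F] : Prop where
  three : (3 : F) = 0
  ns : ∀ a : F, a * a ≠ -1
  big : ∃ s : F, s ≠ 0 ∧ s * s ≠ 1

theorem Fd.two (h : Fd F) : (2 : F) ≠ 0 := fun e => one_ne_zero (α := F) (by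
  linear_combination h.three - e)

theorem fd_of_card [Finite F] {m : ℕ} (hm : Odd m) (hm1 : 1 < m) (hF : Nat.card F = 3 ^ m) : Fd F where
  three := three_eq_zero hF
  ns a e := by
    have := Fintype.ofFinite F
    refine FiniteField.isSquare_neg_one_iff.1 ⟨a, e.symm⟩ ?_
    obtain ⟨k, rfl⟩ := hm
    rw [← Nat.card_eq_fintype_card, hF, pow_succ, pow_mul, Nat.mul_mod, Nat.pow_mod]
    simp
  big := by
    have h9 : 4 ≤ Nat.card F := hF ▸ le_trans (by norm_num) (Nat.pow_le_pow_right (by norm_num) hm1)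
    obtain ⟨a, h0, h1⟩ := Cl.exists_sq_ne_one_of_four_le_card (F := F) h9
    exact ⟨a, h0, by rwa [← pow_two]⟩

theorem ng_ne_one (h2 : (2 : F) ≠ 0) : (ng : SL(2, F)) ≠ 1 := fun e => h2 (by
  have := congrArg (fun g : SL(2, F) => g.1 0 0) e
  simp only [ng00, sl_one00] at this
  linear_combination -this)

theorem ng_inv : (ng : SL(2, F))⁻¹ = ng := inv_eq_of_mul_eq_one_right ng_mul_ng

theorem inv_of_sq_ng {g : SL(2, F)} (h : g * g = ng) : g⁻¹ = g * ng :=
  inv_eq_of_mul_eq_one_right (by rw [← mul_assoc, h, ng_mul_ng])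

theorem Fd.tr_of_sq (h : Fd F) {g : SL(2, F)} (e : g * g = ng) :
    g.1 1 0 ≠ 0 ∧ g.1 1 1 = -g.1 0 0 := by
  have e0 := congrArg (fun g : SL(2, F) => g.1 0 0) e
  have e1 := congrArg (fun g : SL(2, F) => g.1 1 0) e
  simp only [sl_mul00, sl_mul10, ng00, ng10] at e0 e1
  have h1 : g.1 1 0 ≠ 0 := fun e2 => h.ns (g.1 0 0) (by rw [e2] at e0; linear_combination e0)
  exact ⟨h1, mul_left_cancel₀ h1 (by linear_combination e1)⟩

/-- all elements with square `-1` are conjugate -/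
theorem Fd.conj_qi [Finite F] (h : Fd F) {g : SL(2, F)} (e : g * g = ng) :
    ∃ k : SL(2, F), k * qi * k⁻¹ = g := by
  have := Fintype.ofFinite F
  obtain ⟨h1, h2⟩ := h.tr_of_sq e
  have hd := sl_det g
  have hodd : Fintype.card F % 2 = 1 := FiniteField.odd_card_of_char_ne_two fun e2 => h.two (by
    have := CharP.cast_eq_zero F (ringChar F)
    rwa [e2] at this)
  obtain ⟨X, Y, hXY⟩ := FiniteField.exists_root_sum_quadratic
    (f := Polynomial.X ^ 2) (g := Polynomial.X ^ 2 - Polynomial.C (g.1 1 0))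
    (Polynomial.degree_X_pow 2) (Polynomial.degree_X_pow_sub_C (by norm_num) _) hodd
  simp only [Polynomial.eval_pow, Polynomial.eval_X, Polynomial.eval_sub, Polynomial.eval_C] at hXY
  obtain ⟨x, hx⟩ : ∃ x, g.1 1 0 * x = X + g.1 0 0 * Y := ⟨_, mul_div_cancel₀ _ h1⟩
  rw [h2] at hd
  refine ⟨slm x (g.1 0 0 * x + g.1 0 1 * Y) Y (g.1 1 0 * x - g.1 0 0 * Y) (mul_left_cancel₀ h1 ?_), ?_⟩
  · linear_combination hXY + (g.1 1 0 * x + X - g.1 0 0 * Y) * hx + Y ^ 2 * hd
  · rw [mul_inv_eq_iff_eq_mul]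
    refine sl_ext ?_ ?_ ?_ ?_ <;>
      simp only [sl_mul00, sl_mul01, sl_mul10, sl_mul11, slm00, slm01, slm10, slm11, qi00, qi01, qi10,
        qi11, h2]
    · ring
    · linear_combination x * hd
    · ring
    · linear_combination Y * hd

theorem comm_qi {g : SL(2, F)} : g * qi = qi * g ↔ g.1 1 0 = -g.1 0 1 ∧ g.1 1 1 = g.1 0 0 := by
  constructor
  · intro e
    have e0 := congrArg (fun g : SL(2, F) => g.1 0 0) e
    have e1 := congrArg (fun g : SL(2, F) => g.1 0 1) e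
    simp only [sl_mul00, sl_mul01, qi00, qi01, qi10, qi11] at e0 e1
    exact ⟨by linear_combination e0, by linear_combination e1⟩
  · rintro ⟨e0, e1⟩
    refine sl_ext ?_ ?_ ?_ ?_ <;> simp [e0, e1]

theorem comm_of_comm_qi {g k : SL(2, F)} (hg : g * qi = qi * g) (hk : k * qi = qi * k) :
    g * k = k * g := by
  obtain ⟨a, b⟩ := comm_qi.1 hg
  obtain ⟨c, d⟩ := comm_qi.1 hk
  refine sl_ext ?_ ?_ ?_ ?_ <;> simp [a, b, c, d] <;> ring

theorem eq_pm_of_01 {g : SL(2, F)} (hg : g * qi = qi * g) (e : g.1 0 1 = 0) : g = 1 ∨ g = ng := by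
  obtain ⟨a, b⟩ := comm_qi.1 hg
  have hd := sl_det g
  rw [e, b, zero_mul, sub_zero] at hd
  rcases mul_self_eq_one_iff.1 hd with e1 | e1
  · exact Or.inl (sl_ext (by simp [e1]) (by simp [e]) (by simp [a, e]) (by simp [b, e1]))
  · exact Or.inr (sl_ext (by simp [e1]) (by simp [e]) (by simp [a, e]) (by simp [b, e1]))

theorem Fd.eq_qi (h : Fd F) {g : SL(2, F)} (hg : g * qi = qi * g) (e : g * g = ng) :
    g = qi ∨ g = qi⁻¹ := by
  obtain ⟨a, b⟩ := comm_qi.1 hg
  obtain ⟨-, h2⟩ := h.tr_of_sq e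
  have h0 : g.1 0 0 = 0 := eq_zero_of_two h.two (by linear_combination h2 - b)
  have hd := sl_det g
  rw [a, h0, zero_mul, mul_neg, sub_neg_eq_add, zero_add] at hd
  rcases mul_self_eq_one_iff.1 hd with e1 | e1
  · exact Or.inr (sl_ext (by simp [h0]) (by simp [e1]) (by simp [a, e1]) (by simp [b, h0]))
  · exact Or.inl (sl_ext (by simp [h0]) (by simp [e1]) (by simp [a, e1]) (by simp [b, h0]))

theorem Fd.cube_qi (h : Fd F) {g : SL(2, F)} (hg : g * qi = qi * g)
    (e : g * g * g = 1 ∨ g * g * g = ng) : g = 1 ∨ g = ng := by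
  obtain ⟨a, b⟩ := comm_qi.1 hg
  refine eq_pm_of_01 hg (pow_eq_zero_iff (n := 3) (by norm_num) |>.1 ?_)
  have e1 : (g * g * g).1 0 1 = 0 := by rcases e with e | e <;> simp [e]
  simp only [sl_mul00, sl_mul01, a, b] at e1
  linear_combination g.1 0 0 ^ 2 * g.1 0 1 * h.three - e1

/-- no elements of order eight -/
theorem Fd.no8 (h : Fd F) (g : SL(2, F)) : g * g * (g * g) ≠ ng := fun e => by
  obtain ⟨-, h2⟩ := h.tr_of_sq e
  have hd := sl_det g
  simp only [sl_mul00, sl_mul11] at h2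
  exact h.ns (g.1 0 0 + g.1 1 1) (by linear_combination h2 + 2 * hd + h.three)

theorem Fd.exists_y (h : Fd F) : ∃ y : SL(2, F), y * qi = qi * y ∧ y * y * (y * y) ≠ 1 := by
  obtain ⟨s, h0, h1⟩ := h.big
  have h2 : 1 + s * s ≠ 0 := fun e => h.ns s (by linear_combination e)
  have h3 : 1 - s * s ≠ 0 := fun e => h1 (by linear_combination -e)
  obtain ⟨r, hr⟩ : ∃ r, r * (1 + s * s) = 1 := ⟨_, inv_mul_cancel₀ h2⟩
  refine ⟨slm ((1 - s * s) * r) (2 * s * r) (-(2 * s * r)) ((1 - s * s) * r)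
    (by linear_combination (r * (1 + s * s) + 1) * hr), comm_qi.2 ⟨rfl, rfl⟩, fun e => ?_⟩
  rcases eq_ng_of_sq h.two e with e1 | e1 <;>
  · have e2 := congrArg (fun g : SL(2, F) => g.1 0 1) e1
    simp only [sl_mul01, slm00, slm01, slm11, sl_one01, ng01] at e2
    have e3 : 2 * (2 * (s * (1 - s * s) * (r * r))) = 0 := by linear_combination e2
    exact mul_ne_zero (mul_ne_zero h0 h3) (mul_self_ne_zero.2 (left_ne_zero_of_mul_eq_one hr))
      (eq_zero_of_two h.two (eq_zero_of_two h.two e3))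

theorem Fd.qj_qi (h : Fd F) : (qj : SL(2, F)) * qi * qj⁻¹ = qi⁻¹ := by
  rw [mul_inv_eq_iff_eq_mul]
  refine sl_ext ?_ ?_ ?_ ?_ <;> simp [qj] <;> linear_combination -h.three

theorem qi_dg (μ : Fˣ) : (qi : SL(2, F)) * dg μ * qi⁻¹ = (dg μ)⁻¹ :=
  sl_ext (by simp) (by simp) (by simp) (by simp)

theorem qi_uu_cube : ((qi : SL(2, F)) * uu (-1)) * (qi * uu (-1)) * (qi * uu (-1)) = 1 :=
  sl_ext (by simp) (by simp) (by simp) (by simp)

theorem eq_qi_of {w : SL(2, F)} {μ : Fˣ} (hμ : (μ : F) * μ ≠ 1) (h1 : w * dg μ * w⁻¹ = (dg μ)⁻¹)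
    (h2 : (w * uu (-1)) * (w * uu (-1)) * (w * uu (-1)) = 1) : w = qi := by
  rw [mul_inv_eq_iff_eq_mul] at h1
  have a0 := congrArg (fun g : SL(2, F) => g.1 0 0) h1
  have a1 := congrArg (fun g : SL(2, F) => g.1 1 1) h1
  simp only [sl_mul00, sl_mul11, sl_inv00, sl_inv01, sl_inv10, sl_inv11, dg00, dg01, dg10, dg11] at a0 a1
  have hm : (μ : F) * μ - 1 ≠ 0 := sub_ne_zero.2 hμ
  have m0 := μ.ne_zero
  have b0 : w.1 0 0 = 0 := by
    refine (mul_eq_zero.1 (?_ : w.1 0 0 * ((μ : F) * μ - 1) = 0)).resolve_right hm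
    field_simp at a0
    linear_combination a0
  have b1 : w.1 1 1 = 0 := by
    refine (mul_eq_zero.1 (?_ : w.1 1 1 * ((μ : F) * μ - 1) = 0)).resolve_right hm
    field_simp at a1
    linear_combination -a1
  have hd := sl_det w
  have c0 := congrArg (fun g : SL(2, F) => g.1 0 0) h2
  simp only [sl_mul00, sl_mul01, sl_mul10, sl_mul11, uu00, uu01, uu10, uu11, sl_one00, b0, b1] at c0 hd
  have d0 : w.1 1 0 = 1 := by linear_combination c0 - w.1 1 0 * hd
  refine sl_ext b0 ?_ d0 b1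
  rw [d0] at hd
  simp only [qi01]
  linear_combination -hd

theorem sl_eq_top {A : Subgroup SL(2, F)} (hu : ∀ c, uu c ∈ A) (hd : ∀ μ, dg μ ∈ A) (hw : qi ∈ A)
    (g : SL(2, F)) : g ∈ A := by
  have hb : ∀ g : SL(2, F), g.1 1 0 = 0 → g ∈ A := fun g e => by
    have h1 := sl_det g
    rw [e, mul_zero, sub_zero] at h1
    have h2 : g.1 0 0 ≠ 0 := left_ne_zero_of_mul_eq_one h1
    have : g = dg (Units.mk0 _ h2) * uu (g.1 0 1 / g.1 0 0) := by
      refine sl_ext (by simp) ?_ (by simp [e]) ?_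
      · simp; field_simp
      · simp; exact eq_inv_of_mul_eq_one_right h1
    exact this ▸ A.mul_mem (hd _) (hu _)
  by_cases e : g.1 1 0 = 0
  · exact hb g e
  · have h1 := hb (qi * uu (-(g.1 0 0 / g.1 1 0)) * g) (by simp; field_simp; ring)
    exact (A.mul_mem_cancel_left (A.mul_mem hw (hu _))).1 h1

theorem eq_pm_of_central {g : SL(2, F)} (h : ∀ k, g * k = k * g) : g = 1 ∨ g = ng := by
  have e := congrArg (fun g : SL(2, F) => g.1 0 0) (h (uu 1))
  simp only [sl_mul00, uu00, uu01, uu10] at e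
  exact eq_pm_of_01 (h qi) (by linear_combination (comm_qi.1 (h qi)).1 + e)

theorem comm_dg {g : SL(2, F)} {μ : Fˣ} (hμ : (μ : F) * μ ≠ 1) (h : g * dg μ = dg μ * g) :
    ∃ ν, g = dg ν := by
  have a0 := congrArg (fun g : SL(2, F) => g.1 0 1) h
  have a1 := congrArg (fun g : SL(2, F) => g.1 1 0) h
  simp only [sl_mul01, sl_mul10, dg00, dg01, dg10, dg11] at a0 a1
  have hm : (μ : F) * μ - 1 ≠ 0 := sub_ne_zero.2 hμ
  have m0 := μ.ne_zero
  have b0 : g.1 0 1 = 0 := by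
    refine (mul_eq_zero.1 (?_ : g.1 0 1 * ((μ : F) * μ - 1) = 0)).resolve_right hm
    field_simp at a0
    linear_combination -a0
  have b1 : g.1 1 0 = 0 := by
    refine (mul_eq_zero.1 (?_ : g.1 1 0 * ((μ : F) * μ - 1) = 0)).resolve_right hm
    field_simp at a1
    linear_combination a1
  have h1 := sl_det g
  rw [b0, zero_mul, sub_zero] at h1
  exact ⟨Units.mk0 _ (left_ne_zero_of_mul_eq_one h1), sl_ext (by simp) (by simp [b0]) (by simp [b1])
    (by simpa using eq_inv_of_mul_eq_one_right h1)⟩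

theorem dg_comm (μ ν : Fˣ) : (dg μ : SL(2, F)) * dg ν = dg ν * dg μ :=
  sl_ext (by simp [mul_comm]) (by simp) (by simp) (by simp [mul_comm])

theorem Fd.dg_cube (h : Fd F) {μ : Fˣ} (e : (dg μ : SL(2, F)) * dg μ * dg μ = 1) : dg μ = 1 := by
  have a0 := congrArg (fun g : SL(2, F) => g.1 0 0) e
  simp only [sl_mul00, sl_mul01, dg00, dg01, dg10, sl_one00] at a0
  have h1 : (μ : F) = 1 := sub_eq_zero.1 (pow_eq_zero_iff (n := 3) (by norm_num) |>.1 (by
    linear_combination a0 + (-(μ : F) ^ 2 + μ) * h.three))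
  exact sl_ext (by simp [h1]) (by simp) (by simp) (by simp [h1])

theorem Fd.uu_cube (h : Fd F) : (uu 1 : SL(2, F)) * uu 1 * uu 1 = 1 := by
  rw [uu_mul, uu_mul, ← uu_zero]; congr 1; linear_combination h.three

theorem uu_one_ne : (uu 1 : SL(2, F)) ≠ 1 ∧ (uu 1 : SL(2, F)) ≠ ng :=
  ⟨fun e => by simpa using congrArg (fun g : SL(2, F) => g.1 0 1) e,
    fun e => by simpa using congrArg (fun g : SL(2, F) => g.1 0 1) e⟩

end Cfsg.Agent.Hay
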