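import Mathlib
import Cfsg.Agent.Hay.IdSL
import Cfsg.Agent.Hay.IdGen

/-!
# The group `(SL₂(q) ∘ SL₂(q)) ⟨n⟩` inside `G`
-/

set_option autoImplicit false
set_option linter.unusedSectionVars false
open scoped MatrixGroups

namespace Cfsg.Agent.Hay

open Cfsg Cfsg.Agent.GT Cfsg.Agent.Loc.Mss Subgroup

/-- Two commuting copies of `SL₂(F)` with a common centre, interchanged by an involution. -/
structure Wr (F : Type*) [Field F] (G : Type*) [Group G] where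
  /-- the central product -/
  K : SL(2, F) → SL(2, F) → G
  /-- the involution -/
  n : G
  fd : Fd F
  mul : ∀ a b c d, K a b * K c d = K (a * c) (b * d)
  ker : ∀ a b, K a b = 1 ↔ (a = 1 ∧ b = 1) ∨ (a = ng ∧ b = ng)
  nn : n * n = 1
  nK : ∀ a b, n * K a b = K b a * n

namespace Wr

variable {F : Type*} [Field F] {G : Type*} [Group G] (W : Wr F G)

/-- the central involution -/
def t : G := W.K ng 1
/-- the diagonal involution -/
def x : G := W.K qi qi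
/-- an element of order four -/
def i : G := W.K qi 1
/-- the outer involution of the second class -/
def u : G := W.n * W.t

theorem K_one : W.K 1 1 = 1 := (W.ker 1 1).2 (Or.inl ⟨rfl, rfl⟩)
theorem K_ng : W.K ng ng = 1 := (W.ker _ _).2 (Or.inr ⟨rfl, rfl⟩)

theorem K_inv (a b : SL(2, F)) : (W.K a b)⁻¹ = W.K a⁻¹ b⁻¹ :=
  inv_eq_of_mul_eq_one_right (by rw [W.mul, mul_inv_cancel, mul_inv_cancel, K_one])

theorem K_eq {a b c d : SL(2, F)} : W.K a b = W.K c d ↔ (a = c ∧ b = d) ∨ (a = c * ng ∧ b = d * ng) := by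
  rw [← inv_mul_eq_one (a := W.K a b), K_inv, W.mul, W.ker, inv_mul_eq_one, inv_mul_eq_one,
    inv_mul_eq_iff_eq_mul, inv_mul_eq_iff_eq_mul, ← mul_inv_eq_iff_eq_mul, ← mul_inv_eq_iff_eq_mul,
    ng_inv, eq_comm (b := a), eq_comm (b := b)]

theorem K_mul_ng (a b : SL(2, F)) : W.K (a * ng) (b * ng) = W.K a b := W.K_eq.2 (Or.inr ⟨rfl, rfl⟩)

include W in
theorem ng1 : (ng : SL(2, F)) ≠ 1 := ng_ne_one W.fd.two

theorem K_t (a b : SL(2, F)) : W.K a b * W.t = W.K (a * ng) b := by rw [t, W.mul, mul_one]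

theorem K_t' (a b : SL(2, F)) : W.K a b * W.t = W.K a (b * ng) := by
  rw [K_t, ← W.K_mul_ng, mul_assoc, ng_mul_ng, mul_one]

theorem t_eq : W.K 1 ng = W.t := by simpa [K_one] using (W.K_t' 1 1).symm

theorem t_K (a b : SL(2, F)) : W.t * W.K a b = W.K a b * W.t := by
  rw [K_t, t, W.mul, one_mul, ng_comm]

theorem tt : W.t * W.t = 1 := by rw [t, W.mul, ng_mul_ng, mul_one, K_one]

theorem t_ne : W.t ≠ 1 := fun e => by
  rcases (W.ker _ _).1 e with h | h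
  exacts [W.ng1 h.1, W.ng1 h.2.symm]

theorem t_n : W.t * W.n = W.n * W.t := by rw [t, W.nK, t_eq, t]

theorem n_inv : W.n⁻¹ = W.n := inv_eq_of_mul_eq_one_right W.nn
theorem t_inv : W.t⁻¹ = W.t := inv_eq_of_mul_eq_one_right W.tt

theorem K_ne (a b c d : SL(2, F)) : W.K a b ≠ W.K c d * W.n := fun e => by
  have h1 : W.n = W.K (c⁻¹ * a) (d⁻¹ * b) := by rw [← W.mul, ← K_inv, e, inv_mul_cancel_left]
  have h2 := W.nK (uu 1) 1
  rw [h1, W.mul, W.mul, K_eq] at h2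
  rcases h2 with ⟨h, -⟩ | ⟨h, -⟩
  · exact uu_one_ne.1 (by simpa using h)
  · exact uu_one_ne.2 (by simpa using h)

theorem Kn_mul (a b c d : SL(2, F)) : W.K a b * W.n * W.K c d = W.K (a * d) (b * c) * W.n := by
  rw [mul_assoc, W.nK, ← mul_assoc, W.mul]

theorem Kn_Kn (a b c d : SL(2, F)) : W.K a b * W.n * (W.K c d * W.n) = W.K (a * d) (b * c) := by
  rw [← mul_assoc, Kn_mul, mul_assoc, W.nn, mul_one]

/-- the group generated by the two copies and the involution -/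
def D0 : Subgroup G where
  carrier := {g | ∃ a b, g = W.K a b ∨ g = W.K a b * W.n}
  one_mem' := ⟨1, 1, Or.inl W.K_one.symm⟩
  mul_mem' := by
    rintro _ _ ⟨a, b, rfl | rfl⟩ ⟨c, d, rfl | rfl⟩
    · exact ⟨_, _, Or.inl (W.mul _ _ _ _)⟩
    · exact ⟨_, _, Or.inr (by rw [← mul_assoc, W.mul])⟩
    · exact ⟨_, _, Or.inr (W.Kn_mul _ _ _ _)⟩
    · exact ⟨_, _, Or.inl (W.Kn_Kn _ _ _ _)⟩
  inv_mem' := by
    rintro _ ⟨a, b, rfl | rfl⟩
    · exact ⟨_, _, Or.inl (W.K_inv _ _)⟩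
    · exact ⟨_, _, Or.inr (by rw [mul_inv_rev, n_inv, K_inv, W.nK])⟩

theorem K_mem (a b : SL(2, F)) : W.K a b ∈ W.D0 := ⟨a, b, Or.inl rfl⟩
theorem n_mem : W.n ∈ W.D0 := ⟨1, 1, Or.inr (by rw [K_one, one_mul])⟩
theorem t_mem : W.t ∈ W.D0 := W.K_mem _ _
theorem x_mem : W.x ∈ W.D0 := W.K_mem _ _
theorem i_mem : W.i ∈ W.D0 := W.K_mem _ _
theorem u_mem : W.u ∈ W.D0 := mul_mem W.n_mem W.t_mem

theorem comm_t {g : G} (h : g ∈ W.D0) : g * W.t = W.t * g := by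
  obtain ⟨a, b, rfl | rfl⟩ := h
  · exact (W.t_K a b).symm
  · rw [mul_assoc, ← t_n, ← mul_assoc, ← t_K, mul_assoc]

theorem xx : W.x * W.x = 1 := by rw [x, W.mul, qi_sq, K_ng]
theorem ii : W.i * W.i = W.t := by rw [i, W.mul, qi_sq, mul_one, t]
theorem uu' : W.u * W.u = 1 := by
  rw [u, mul_assoc, ← mul_assoc W.t, t_n, mul_assoc, tt, mul_one, W.nn]
theorem i_x : W.i * W.x = W.x * W.i := by rw [i, x, W.mul, W.mul, one_mul, mul_one]

theorem qi_ne : (qi : SL(2, F)) ≠ 1 ∧ (qi : SL(2, F)) ≠ ng :=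
  ⟨fun e => by simpa using congrArg (fun g : SL(2, F) => g.1 0 0) e,
    fun e => by simpa using congrArg (fun g : SL(2, F) => g.1 0 0) e⟩

theorem x_ne : W.x ≠ 1 ∧ W.x ≠ W.t := by
  refine ⟨fun e => ?_, fun e => ?_⟩
  · rcases (W.ker _ _).1 e with h | h
    exacts [qi_ne.1 h.1, qi_ne.2 h.1]
  · rcases W.K_eq.1 e with h | h
    exacts [qi_ne.2 h.1, qi_ne.2 (by simpa using h.2)]

theorem K_pm {a b : SL(2, F)} (ha : a = 1 ∨ a = ng) (hb : b = 1 ∨ b = ng) :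
    W.K a b = 1 ∨ W.K a b = W.t := by
  rcases ha with rfl | rfl <;> rcases hb with rfl | rfl
  exacts [Or.inl W.K_one, Or.inr W.t_eq, Or.inr rfl, Or.inl W.K_ng]

theorem sq_ng_mul {a : SL(2, F)} (h : a * a = ng) : a * ng * (a * ng) = ng := by
  rw [mul_assoc, ← mul_assoc ng, ng_comm a, mul_assoc, ng_mul_ng, mul_one, h]

theorem sq_t {d : G} (hd : d ∈ W.D0) (e : d * d = W.t) :
    ∃ v, v * v = ng ∧ (d = W.K v 1 ∨ d = W.K 1 v) := by
  obtain ⟨a, b, rfl | rfl⟩ := hd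
  · rw [W.mul, t, K_eq, ng_mul_ng, one_mul] at e
    rcases e with ⟨h1, h2⟩ | ⟨h1, h2⟩
    · rcases eq_ng_of_sq W.fd.two h2 with rfl | rfl
      · exact ⟨a, h1, Or.inl rfl⟩
      · exact ⟨a * ng, sq_ng_mul h1, Or.inl (by rw [← K_mul_ng, ng_mul_ng])⟩
    · rcases eq_ng_of_sq W.fd.two h1 with rfl | rfl
      · exact ⟨b, h2, Or.inr rfl⟩
      · exact ⟨b * ng, sq_ng_mul h2, Or.inr (by rw [← K_mul_ng, ng_mul_ng])⟩
  · rw [Kn_Kn, t, K_eq, ng_mul_ng, one_mul] at e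
    rcases e with ⟨h1, h2⟩ | ⟨h1, h2⟩
    · exact absurd (h1.symm.trans (mul_eq_one_comm.1 h2)) W.ng1
    · exact absurd (h2.symm.trans (mul_eq_one_comm.1 h1)) W.ng1

theorem inv_cls {d : G} (hd : d ∈ W.D0) (e : d * d = 1) : d = 1 ∨ d = W.t ∨
    (∃ a b, a * a = ng ∧ b * b = ng ∧ d = W.K a b) ∨ ∃ a, d = W.K a a⁻¹ * W.n ∨ d = W.K a a⁻¹ * W.u := by
  obtain ⟨a, b, rfl | rfl⟩ := hd
  · rw [W.mul, W.ker] at e
    rcases e with ⟨h1, h2⟩ | ⟨h1, h2⟩
    · exact (W.K_pm (eq_ng_of_sq W.fd.two h1) (eq_ng_of_sq W.fd.two h2)).imp_right Or.inl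
    · exact Or.inr (Or.inr (Or.inl ⟨a, b, h1, h2, rfl⟩))
  · rw [Kn_Kn, W.ker] at e
    refine Or.inr (Or.inr (Or.inr ⟨a, ?_⟩))
    rcases e with ⟨h1, -⟩ | ⟨h1, -⟩
    · exact Or.inl (by rw [eq_inv_of_mul_eq_one_right h1])
    · exact Or.inr (by rw [u, ← t_n, ← mul_assoc, K_t', ← h1, inv_mul_cancel_left])

theorem conj_n (a b : SL(2, F)) : W.K a b * W.n * (W.K a b)⁻¹ = W.K (a * b⁻¹) (a * b⁻¹)⁻¹ * W.n := by
  rw [K_inv, Kn_mul, mul_inv_rev, inv_inv]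

theorem conj_n' (a : SL(2, F)) : W.K a a⁻¹ * W.n = W.K a 1 * W.n * (W.K a 1)⁻¹ := by
  rw [conj_n, inv_one, mul_one]

theorem conj_u' (a : SL(2, F)) : W.K a a⁻¹ * W.u = W.K a 1 * W.u * (W.K a 1)⁻¹ := by
  rw [u, ← mul_assoc, conj_n', ← mul_assoc, mul_assoc _ W.t, K_inv, t_K, ← mul_assoc]

variable [Finite F]

theorem conj_x {a b : SL(2, F)} (ha : a * a = ng) (hb : b * b = ng) :
    ∃ e ∈ W.D0, W.K a b = e * W.x * e⁻¹ := by
  obtain ⟨k, rfl⟩ := W.fd.conj_qi ha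
  obtain ⟨l, rfl⟩ := W.fd.conj_qi hb
  exact ⟨_, W.K_mem k l, by rw [x, K_inv, W.mul, W.mul]⟩

theorem inv_cls' {d : G} (hd : d ∈ W.D0) (e : d * d = 1) : d = 1 ∨ d = W.t ∨
    ∃ e ∈ W.D0, d = e * W.x * e⁻¹ ∨ d = e * W.n * e⁻¹ ∨ d = e * W.u * e⁻¹ := by
  refine (W.inv_cls hd e).imp_right (Or.imp_right ?_)
  rintro (⟨a, b, ha, hb, rfl⟩ | ⟨a, rfl | rfl⟩)
  · obtain ⟨e, he, h⟩ := W.conj_x ha hb
    exact ⟨e, he, Or.inl h⟩
  · exact ⟨_, W.K_mem _ _, Or.inr (Or.inl (W.conj_n' a))⟩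
  · exact ⟨_, W.K_mem _ _, Or.inr (Or.inr (W.conj_u' a))⟩

theorem conj_i {d : G} (hd : d ∈ W.D0) (e : d * d = W.t) : ∃ e ∈ W.D0, d = e * W.i * e⁻¹ := by
  obtain ⟨v, hv, h⟩ := W.sq_t hd e
  obtain ⟨k, rfl⟩ := W.fd.conj_qi hv
  rcases h with rfl | rfl
  · exact ⟨_, W.K_mem k 1, by rw [i, K_inv, W.mul, W.mul]; simp⟩
  · refine ⟨_, mul_mem (W.K_mem 1 k) W.n_mem, ?_⟩
    rw [i, mul_inv_rev, n_inv, K_inv, Kn_mul, mul_assoc _ W.n, ← mul_assoc W.n, W.nn, one_mul (W.K _ _), W.mul]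
    simp

theorem anti_sq {a : SL(2, F)} (h : a * qi = qi * a * ng) : a * a * qi = qi * (a * a) := by
  calc _ = a * (qi * a * ng) := by rw [mul_assoc, h]
    _ = a * qi * (a * ng) := by group
    _ = qi * a * (ng * (ng * a)) := by rw [h, ← ng_comm a]; group
    _ = _ := by rw [← mul_assoc ng, ng_mul_ng]; group

theorem no3 {e : G} (he : e ∈ W.D0) (hx : e * W.x = W.x * e) (h3 : e * e * e = 1) : e = 1 := by
  obtain ⟨a, b, rfl | rfl⟩ := he
  · rw [x, W.mul, W.mul, K_eq] at hx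
    have h4 := h3
    rw [W.mul, W.mul, W.ker] at h4
    have ha : a * a * a = 1 ∨ a * a * a = ng := h4.imp And.left And.left
    have hb : b * b * b = 1 ∨ b * b * b = ng := h4.imp And.right And.right
    rcases hx with ⟨h1, h2⟩ | ⟨h1, -⟩
    · refine (W.K_pm (W.fd.cube_qi h1 ha) (W.fd.cube_qi h2 hb)).resolve_right fun e => W.t_ne ?_
      rwa [e, tt, one_mul] at h3
    · have h5 : a * a * a * qi = qi * (a * a * a) * ng := by
        calc _ = a * (a * a * qi) := by group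
          _ = a * qi * (a * a) := by rw [anti_sq h1]; group
          _ = qi * a * (ng * (a * a)) := by rw [h1]; group
          _ = _ := by rw [ng_comm]; group
      refine absurd ?_ W.ng1
      rcases ha with e | e <;> rw [e] at h5
      · simpa using h5
      · rw [ng_comm] at h5
        simpa using h5
  · rw [Kn_Kn, ← mul_assoc, W.mul, ← W.K_one] at h3
    exact absurd h3.symm (W.K_ne _ _ _ _)

theorem p4 {e : G} (he : e ∈ W.D0) (hx : e * W.x = W.x * e) :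
    e * e * (e * e) * W.i = W.i * (e * e * (e * e)) := by
  obtain ⟨a, b, h⟩ : ∃ a b, e * e = W.K a b := by
    obtain ⟨a, b, rfl | rfl⟩ := he
    exacts [⟨_, _, W.mul _ _ _ _⟩, ⟨_, _, W.Kn_Kn _ _ _ _⟩]
  have h1 : e * e * W.x = W.x * (e * e) := by rw [mul_assoc, hx, ← mul_assoc, hx, mul_assoc]
  rw [h, x, W.mul, W.mul, K_eq] at h1
  have h2 : a * a * qi = qi * (a * a) := by
    rcases h1 with ⟨h1, -⟩ | ⟨h1, -⟩
    · rw [mul_assoc, h1, ← mul_assoc, h1, mul_assoc]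
    · exact anti_sq h1
  rw [h, i, W.mul, W.mul, W.mul, h2, one_mul, mul_one]

/-- the centraliser of an element of order four lies in `D₀` -/
def Term : Prop := ∀ g, g * W.i = W.i * g → g ∈ W.D0

variable {W}

theorem Term.good (h : W.Term) {c g : G} (hc : c ∈ W.D0) (e : c * c = W.t) (hg : g * W.t = W.t * g)
    (h1 : g * c * g⁻¹ ∈ W.D0) : g ∈ W.D0 := by
  obtain ⟨k, hk, h2⟩ := W.conj_i h1 (by rw [conj_mul, e, hg, mul_inv_cancel_right])
  obtain ⟨l, hl, rfl⟩ := W.conj_i hc e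
  have h3 := h (k⁻¹ * g * l) (by
    calc _ = k⁻¹ * (g * (l * W.i * l⁻¹) * g⁻¹) * g * l := by group
      _ = _ := by rw [h2]; group)
  exact (W.D0.mul_mem_cancel_left (inv_mem hk)).1 ((W.D0.mul_mem_cancel_right hl).1 h3)

theorem inv_sq_t {c : G} (e : c * c = W.t) : c⁻¹ * c⁻¹ = W.t := by rw [← mul_inv_rev, e, t_inv]

variable [Finite G]

theorem Term.norm_x (h : W.Term) {y : G} (ht : y * W.t = W.t * y)
    (hx : y * W.x * y⁻¹ = W.x ∨ y * W.x * y⁻¹ = W.x * W.t) : y ∈ W.D0 := by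
  have hxt := W.comm_t W.x_mem
  have e1 : W.t * (W.x * W.t) = W.x := by rw [hxt, ← mul_assoc, W.tt, one_mul]
  have e2 : W.x * (W.x * W.t) = W.t := by rw [← mul_assoc, W.xx, one_mul]
  have e3 : W.x * W.t * W.t = W.x := by rw [mul_assoc, W.tt, mul_one]
  have e4 : W.x * W.t * W.x = W.t := by rw [hxt, mul_assoc, W.xx, mul_one]
  have e5 : W.x * W.t * (W.x * W.t) = 1 := by rw [← mul_assoc, e4, W.tt]
  let N : Subgroup G :=
    { carrier := {g | g = 1 ∨ g = W.t ∨ g = W.x ∨ g = W.x * W.t}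
      one_mem' := Or.inl rfl
      mul_mem' := by
        rintro _ _ (rfl | rfl | rfl | rfl) (rfl | rfl | rfl | rfl) <;>
          simp [W.tt, W.xx, e1, e2, e3, e4, e5, ← hxt]
      inv_mem' := by
        rintro _ (rfl | rfl | rfl | rfl)
        · simp
        · simp [W.t_inv]
        · simp [inv_eq_of_mul_eq_one_right W.xx]
        · rw [inv_eq_of_mul_eq_one_right e5]; simp }
  have hN : ∀ g, g ∈ N ↔ g = 1 ∨ g = W.t ∨ g = W.x ∨ g = W.x * W.t := fun _ => Iff.rfl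
  have hND : N ≤ W.D0 := by
    rintro _ (rfl | rfl | rfl | rfl)
    exacts [one_mem _, W.t_mem, W.x_mem, mul_mem W.x_mem W.t_mem]
  have hY : ∀ y, y * W.t = W.t * y → (y * W.x * y⁻¹ = W.x ∨ y * W.x * y⁻¹ = W.x * W.t) →
      y ∈ centralizer {W.t} ⊓ 𝐍[N] := fun y ht hx => by
    have ht' : y * W.t * y⁻¹ = W.t := by rw [ht, mul_inv_cancel_right]
    refine ⟨mem_centralizer_singleton_iff.2 ht, mem_norm_of_cj_le (cj_le_iff.2 ?_)⟩
    rintro _ (rfl | rfl | rfl | rfl)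
    · simp
    · simp [hN, ht']
    · rcases hx with e | e <;> simp [hN, e]
    · rw [← conj_mul, ht']
      rcases hx with e | e <;> simp [hN, e, e3]
  have htN : W.t ∈ N := Or.inr (Or.inl rfl)
  have gd : ∀ c ∈ W.D0, c * c = W.t → ∀ y ∈ centralizer {W.t} ⊓ 𝐍[N], y * c * y⁻¹ * c⁻¹ ∈ N → y ∈ W.D0 :=
    fun c hc e y hy h1 => h.good hc e (mem_centralizer_singleton_iff.1 hy.1)
      ((W.D0.mul_mem_cancel_right (inv_mem hc)).1 (hND h1))
  have hiY := hY W.i (W.comm_t W.i_mem) (Or.inl (by rw [W.i_x, mul_inv_cancel_right]))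
  have hq : (qi : SL(2, F))⁻¹ = qi * ng := inv_of_sq_ng qi_sq
  have hjj : W.K qj 1 * W.K qj 1 = W.t := by rw [W.mul, qj_sq, mul_one, t]
  have hij : (qi : SL(2, F)) * qj * (qi * qj) = ng := by
    calc _ = qi * (qj * qi * qj⁻¹) * (qj * qj) := by group
      _ = _ := by rw [W.fd.qj_qi, qj_sq]; simp
  refine zl (Y := centralizer {W.t} ⊓ 𝐍[N]) (τ := W.i) (a := W.i) (b := W.K qj 1) inf_le_right hND hiY hiY
    (hY _ (W.comm_t (W.K_mem _ _)) (Or.inr ?_)) (W.ii ▸ htN) (fun y hy h1 => ?_) (gd _ W.i_mem W.ii)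
    (W.ii ▸ htN) (hjj ▸ htN) ?_ ?_ (hY y ht hx)
  · rw [x, K_inv, W.mul, W.mul, W.fd.qj_qi, K_t, hq]; simp
  · have hyt := mem_centralizer_singleton_iff.1 hy.1
    set v := y * W.i * y⁻¹ with hv
    have hvv : v * v = W.t := by rw [hv, conj_mul, W.ii, hyt, mul_inv_cancel_right]
    have hvt : v * W.t = W.t * v := by rw [← hvv]; exact (mul_assoc _ _ _).symm
    have hvD : v ∈ W.D0 := h.good (inv_mem W.i_mem) (inv_sq_t W.ii) hvt
      ((W.D0.mul_mem_cancel_left W.i_mem).1 (by simpa [mul_assoc] using hND h1))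
    have hvx : v * W.x = W.x * v := by
      have h2 : v * (y * W.x * y⁻¹) = y * W.x * y⁻¹ * v := by rw [hv, conj_mul, conj_mul, W.i_x]
      rcases (hN _).1 (conj_mem_of_norm hy.2 (Or.inr (Or.inr (Or.inl rfl)) : W.x ∈ N)) with e | e | e | e
      · exact absurd (conj_eq_one_iff.1 e) W.x_ne.1
      · rw [mul_inv_eq_iff_eq_mul, ← hyt, mul_right_inj] at e
        exact absurd e W.x_ne.2
      · rwa [e] at h2
      · rwa [e, ← mul_assoc, mul_assoc W.x, ← hvt, ← mul_assoc, mul_left_inj] at h2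
    obtain ⟨w, hw, e | e⟩ := W.sq_t hvD hvv
    · rw [e, x, W.mul, W.mul, K_eq] at hvx
      have h3 : w * qi = qi * w := (hvx.resolve_right fun h4 => W.ng1 (by simpa using h4.2)).1
      rw [e, i, K_inv, W.mul]
      rcases W.fd.eq_qi h3 hw with rfl | rfl
      · simp [hN, K_one]
      · rw [← mul_inv_rev, qi_sq, ng_inv, inv_one, mul_one]; exact htN
    · rw [e, x, W.mul, W.mul, K_eq] at hvx
      have h3 : w * qi = qi * w := (hvx.resolve_right fun h4 => W.ng1 (by simpa using h4.1)).2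
      rw [e, i, K_inv, W.mul, one_mul, inv_one, mul_one, hq]
      rcases W.fd.eq_qi h3 hw with rfl | rfl
      · rw [← K_t]; exact Or.inr (Or.inr (Or.inr rfl))
      · rw [hq, K_mul_ng]; exact Or.inr (Or.inr (Or.inl rfl))
  · rw [i, K_inv, K_inv, W.mul, W.mul, W.mul,
      show (qi : SL(2, F)) * qj * qi⁻¹ * qj⁻¹ = qi * (qj * qi * qj⁻¹)⁻¹ by group, W.fd.qj_qi, inv_inv, qi_sq]
    simpa [t] using htN
  · rintro y hy (e | e | e)
    · exact gd _ W.i_mem W.ii y hy e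
    · exact gd _ (W.K_mem _ _) hjj y hy e
    · exact gd _ (mul_mem W.i_mem (W.K_mem _ _)) (by rw [i, W.mul, W.mul, hij, t]; simp) y hy e

end Wr

end Cfsg.Agent.Hay
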