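import Mathlib
import Cfsg.Agent.Hay.IdWr

/-!
# The centraliser of `t` and the fusion of involutions
-/

set_option autoImplicit false
set_option linter.unusedSectionVars false
open scoped MatrixGroups

namespace Cfsg.Agent.Hay

open Cfsg Cfsg.Agent.GT Cfsg.Agent.Loc.Mss Subgroup

namespace Wr

variable {F : Type*} [Field F] {G : Type*} [Group G] {W : Wr F G} [Finite F] [Finite G]

/-- An element of order three commuting with `t` and with an outer involution. -/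
theorem exists_three {e s : G} (he : e ∈ W.D0) (hs : s = e * W.n * e⁻¹ ∨ s = e * W.u * e⁻¹) :
    ∃ δ, δ ≠ 1 ∧ δ * δ * δ = 1 ∧ δ * W.t = W.t * δ ∧ δ * s = s * δ := by
  have h1 : W.K (uu 1) (uu 1) * W.n = W.n * W.K (uu 1) (uu 1) := (W.nK _ _).symm
  refine ⟨e * W.K (uu 1) (uu 1) * e⁻¹, fun h => ?_, ?_,
    W.comm_t (mul_mem (mul_mem he (W.K_mem _ _)) (inv_mem he)), ?_⟩
  · rcases (W.ker _ _).1 (conj_eq_one_iff.1 h) with h | h
    exacts [uu_one_ne.1 h.1, uu_one_ne.2 h.1]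
  · rw [conj_mul, conj_mul, W.mul, W.mul, W.fd.uu_cube, K_one]; simp
  · rcases hs with rfl | rfl
    · rw [conj_mul, conj_mul, h1]
    · rw [conj_mul, conj_mul, u, ← mul_assoc (W.K _ _), h1, mul_assoc W.n, ← t_K, mul_assoc W.n]

theorem Term.not_conj_outer (h : W.Term) {d : G} (hd : d * W.t = W.t * d) (a b : SL(2, F)) :
    d * W.x * d⁻¹ ≠ W.K a b * W.n := fun e => by
  have hm : d * W.x * d⁻¹ ∈ W.D0 := e ▸ mul_mem (W.K_mem _ _) W.n_mem
  rcases W.inv_cls hm (by rw [conj_mul, W.xx]; simp) with e1 | e1 | ⟨a, b, -, -, e1⟩ | ⟨a, e1⟩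
  · exact W.x_ne.1 (conj_eq_one_iff.1 e1)
  · exact W.K_ne _ _ _ _ (e1.symm.trans e)
  · exact W.K_ne _ _ _ _ (e1.symm.trans e)
  · rw [W.conj_n', W.conj_u'] at e1
    obtain ⟨δ, h1, h2, h3, h4⟩ := exists_three (W.K_mem a 1) e1
    have h5 : d⁻¹ * δ * d * W.x = W.x * (d⁻¹ * δ * d) := by
      calc _ = d⁻¹ * (δ * (d * W.x * d⁻¹)) * d := by group
        _ = _ := by rw [h4]; group
    have h6 : d⁻¹ * δ * d * W.t = W.t * (d⁻¹ * δ * d) := by
      calc _ = d⁻¹ * δ * (d * W.t) := by group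
        _ = d⁻¹ * (W.t * d) * (d⁻¹ * δ * d) := by rw [hd, ← mul_assoc, mul_assoc _ δ, h3]; group
        _ = _ := by rw [← hd]; group
    have h7 := W.no3 (h.norm_x h6 (Or.inl (by rw [h5, mul_inv_cancel_right]))) h5 (by
      calc _ = d⁻¹ * (δ * δ * δ) * d := by group
        _ = 1 := by rw [h2]; group)
    exact h1 (by
      calc δ = d * (d⁻¹ * δ * d) * d⁻¹ := by group
        _ = 1 := by rw [h7]; group)

/-- The centraliser of `t`. -/
theorem Term.cent_t (h : W.Term) {g : G} (hg : g * W.t = W.t * g) : g ∈ W.D0 := by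
  have hz : ∀ {y}, y ∈ zpowers W.t ↔ y = 1 ∨ y = W.t := mem_zpowers_two W.tt
  have hzD : zpowers W.t ≤ W.D0 := zpowers_le.2 W.t_mem
  have hC : ∀ {y}, y ∈ centralizer {W.t} ↔ y * W.t = W.t * y := mem_centralizer_singleton_iff
  set v := g * W.i * g⁻¹ with hv
  have hvv : v * v = W.t := by rw [hv, conj_mul, W.ii, hg, mul_inv_cancel_right]
  have hvt : v * W.t = W.t * v := by rw [← hvv]; exact (mul_assoc _ _ _).symm
  refine h.good W.i_mem W.ii hg ?_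
  rw [← hv]
  clear_value v
  have hsq : ∀ ν ∈ zpowers W.t, ∀ y, y * W.t = W.t * y → ν * y * (ν * y) = y * y := by
    intro ν hν y hy
    rcases hz.1 hν with rfl | rfl
    · simp
    · rw [mul_assoc, ← mul_assoc y, hy, ← mul_assoc, ← mul_assoc, W.tt, one_mul]
  obtain ⟨c, hc, h1, h2, h3, h4, d, hd, h5⟩ := dih (D := centralizer {W.t}) (N := zpowers W.t)
    (norm_of_cent (cent_comm (zpowers_le.2 (mem_cent.2 fun y hy => hC.1 hy))))
    (hC.2 (W.comm_t W.x_mem)) (hC.2 hvt) (W.xx ▸ one_mem _) (hvv ▸ mem_zpowers _) fun d hd e => by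
      have e1 := hsq _ e v hvt
      rw [inv_mul_cancel_right, conj_mul, W.xx, hvv] at e1
      exact W.t_ne (by simpa using e1.symm)
  have hct := hC.1 hc
  have hdt := hC.1 hd
  have hcD : c ∈ W.D0 := h.norm_x hct ((hz.1 h3).imp (fun e => mul_inv_eq_one.1 e) fun e => by
    rw [mul_inv_eq_iff_eq_mul.1 e, W.comm_t W.x_mem])
  have h6 : v * c⁻¹ * v⁻¹ = c⁻¹ * (c * v * c⁻¹ * v⁻¹) := by group
  rcases hz.1 h2 with e | e
  · have hci : c⁻¹ = c := inv_eq_of_mul_eq_one_right e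
    have outer : ∀ a b, c = W.K a b * W.n → False := fun a b e1 => by
      have h7 : ∀ ν ∈ zpowers W.t, ∃ a' b', ν * (c * W.x) = W.K a' b' * W.n := fun ν hν => by
        rw [e1, x, Kn_mul]
        rcases hz.1 hν with rfl | rfl
        · exact ⟨_, _, one_mul _⟩
        · exact ⟨_, _, by rw [← mul_assoc, t, W.mul]⟩
      rcases h5 with h5 | h5 <;> obtain ⟨a', b', e2⟩ := h7 _ h5 <;> rw [inv_mul_cancel_right] at e2
      · exact h.not_conj_outer hdt _ _ e2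
      · obtain ⟨w, -, e3 | e3⟩ := W.sq_t (d := d * v * d⁻¹) (e2 ▸ mul_mem (W.K_mem _ _) W.n_mem)
          (by rw [conj_mul, hvv, hdt, mul_inv_cancel_right]) <;>
        exact W.K_ne _ _ _ _ (e3.symm.trans e2)
    rcases W.inv_cls hcD e with e1 | e1 | ⟨a, b, ha, hb, e1⟩ | ⟨a, e1 | e1⟩
    · exact absurd (hz.2 (Or.inl e1)) h1
    · exact absurd (hz.2 (Or.inr e1)) h1
    · obtain ⟨k, hk, e2⟩ := W.conj_x ha hb
      have hkt := W.comm_t hk
      have h7 : k⁻¹ * v * k * W.x * (k⁻¹ * v * k)⁻¹ = k⁻¹ * (c⁻¹ * (c * v * c⁻¹ * v⁻¹)) * k := by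
        rw [← h6, hci, e1, e2]; group
      have h8 := h.norm_x (y := k⁻¹ * v * k) (hC.1 (mul_mem (mul_mem (inv_mem (hC.2 hkt)) (hC.2 hvt))
        (hC.2 hkt))) ((hz.1 h4).imp (fun e3 => ?_) fun e3 => ?_)
      · exact (W.D0.mul_mem_cancel_left (inv_mem hk)).1 ((W.D0.mul_mem_cancel_right hk).1 h8)
      · rw [h7, e3, hci, e1, e2]; group
      · rw [h7, e3, hci, e1, e2, mul_assoc, mul_assoc, ← hkt]; group
    · exact (outer _ _ e1).elim
    · exact (outer _ _ (by rw [e1, u, ← t_n, ← mul_assoc, K_t])).elim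
  · exact h.good (inv_mem hcD) (inv_sq_t e) hvt (h6 ▸ mul_mem (inv_mem hcD) (hzD h4))

/-- `t` is not conjugate to the diagonal involution. -/
theorem Term.not_conj (h : W.Term) (g : G) : g * W.t * g⁻¹ ≠ W.x := fun e => by
  have hxt := W.comm_t W.x_mem
  have tr : ∀ {g a b : G}, a * (g * b * g⁻¹) = g * b * g⁻¹ * a → g⁻¹ * a * g * b = b * (g⁻¹ * a * g) :=
    fun {g a b} e => by
      calc _ = g⁻¹ * (a * (g * b * g⁻¹)) * g := by group
        _ = _ := by rw [e]; group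
  have h1 : g⁻¹ * W.t * g ∈ W.D0 := h.cent_t (tr (by rw [e, hxt]))
  rcases W.inv_cls' h1 (by rw [← inv_inv g, inv_inv g⁻¹, conj_mul, W.tt]; simp) with
    e1 | e1 | ⟨k, hk, e1 | e1⟩
  · exact W.t_ne (by simpa [mul_assoc] using congrArg (fun y => g * y * g⁻¹) e1)
  · exact W.x_ne.2 (by
      calc _ = g * (g⁻¹ * W.t * g) * g⁻¹ := by rw [e1, e]
        _ = _ := by group)
  · have a1 : g * k * W.t * (g * k)⁻¹ = W.x := by rw [← e, mul_assoc g, W.comm_t hk]; group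
    have a2 : g * k * W.x * (g * k)⁻¹ = W.t := by
      calc _ = g * (k * W.x * k⁻¹) * g⁻¹ := by group
        _ = _ := by rw [← e1]; group
    generalize g * k = r at a1 a2
    obtain ⟨y, hy, hy4⟩ := W.fd.exists_y
    have b1 : W.K y 1 * W.x = W.x * W.K y 1 := by rw [x, W.mul, W.mul, hy, one_mul, mul_one]
    have b2 : r⁻¹ * W.K y 1 * r ∈ W.D0 := h.cent_t (tr (by rw [a1, b1]))
    have b3 := W.p4 b2 (tr (by rw [a2, t_K]))
    have b4 : W.K (y * y * (y * y)) 1 * (r * W.i * r⁻¹) = r * W.i * r⁻¹ * W.K (y * y * (y * y)) 1 := by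
      have e2 : W.K (y * y * (y * y)) 1 = W.K y 1 * W.K y 1 * (W.K y 1 * W.K y 1) := by
        simp only [W.mul, mul_one]
      calc _ = r * ((r⁻¹ * W.K y 1 * r) * (r⁻¹ * W.K y 1 * r) *
            ((r⁻¹ * W.K y 1 * r) * (r⁻¹ * W.K y 1 * r)) * W.i) * r⁻¹ := by rw [e2]; group
        _ = _ := by rw [b3, e2]; group
    have b5 : r * W.i * r⁻¹ * (r * W.i * r⁻¹) = W.x := by rw [conj_mul, W.ii, a1]
    obtain ⟨a, b, e2 | e2⟩ := h.cent_t (g := r * W.i * r⁻¹) (by rw [← a2, conj_mul, conj_mul, W.i_x])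
    · rw [e2, W.mul, x, K_eq] at b5
      refine W.fd.no8 a ?_
      rcases b5 with ⟨e3, -⟩ | ⟨e3, -⟩ <;> rw [e3]
      exacts [qi_sq, sq_ng_mul qi_sq]
    · rw [e2, Kn_mul, ← mul_assoc, W.mul, mul_left_inj, K_eq] at b4
      rcases b4 with ⟨e3, -⟩ | ⟨e3, -⟩
      · exact hy4 (by simpa using e3)
      · exact W.fd.no8 y (by rw [mul_one, ← ng_comm] at e3; simpa using e3)
  · obtain ⟨δ, h2, h3, h4, h5⟩ := exists_three hk e1
    have h6 : g * δ * g⁻¹ * W.x = W.x * (g * δ * g⁻¹) := by rw [← e, conj_mul, conj_mul, h4]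
    have h7 : g * δ * g⁻¹ * W.t = W.t * (g * δ * g⁻¹) := by
      calc _ = g * (δ * (g⁻¹ * W.t * g)) * g⁻¹ := by group
        _ = _ := by rw [h5]; group
    exact h2 (conj_eq_one_iff.1 (W.no3 (h.cent_t h7) h6 (by rw [conj_mul, conj_mul, h3]; simp)))

/-- `M` contains `D₀` and fuses `n` to `t` and `n t` to the diagonal involution. -/
structure Over (W : Wr F G) (M : Subgroup G) : Prop where
  le : W.D0 ≤ M
  hn : ∃ k ∈ M, k * W.t * k⁻¹ = W.n
  hu : ∃ k ∈ M, k * W.x * k⁻¹ = W.u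

variable {M : Subgroup G}

theorem Term.cls_t (h : W.Term) (hM : W.Over M) {g : G} (hg : g * W.t * g⁻¹ ∈ W.D0) :
    g * W.t * g⁻¹ = W.t ∨ ∃ e ∈ W.D0, g * W.t * g⁻¹ = e * W.n * e⁻¹ := by
  rcases W.inv_cls' hg (by rw [conj_mul, W.tt]; simp) with e1 | e1 | ⟨k, hk, e1 | e1 | e1⟩
  · exact absurd (conj_eq_one_iff.1 e1) W.t_ne
  · exact Or.inl e1
  · exact (h.not_conj (k⁻¹ * g) (by rw [mul_inv_rev, mul_assoc, mul_assoc, ← mul_assoc _ g⁻¹,
      ← mul_assoc g, ← mul_assoc g, e1]; group)).elim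
  · exact Or.inr ⟨k, hk, e1⟩
  · obtain ⟨l, -, e2⟩ := hM.hu
    refine (h.not_conj (l⁻¹ * k⁻¹ * g) ?_).elim
    calc _ = l⁻¹ * k⁻¹ * (g * W.t * g⁻¹) * k * l := by group
      _ = _ := by rw [e1, ← e2]; group

theorem Term.exists_syl (h : W.Term) (hM : W.Over M) : ∃ T, Syl 2 T ⊤ ∧ T ≤ W.D0 := by
  have hi : IsPGroup 2 (zpowers W.i) := IsPGroup.of_card_dvd_pow (n := 2) (by
    rw [Nat.card_zpowers]
    exact orderOf_dvd_of_pow_eq_one (by
      rw [show W.i ^ 2 ^ 2 = W.i * W.i * (W.i * W.i) by simp [pow_succ, mul_assoc], W.ii, W.tt]))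
  obtain ⟨T, h1, hT⟩ := Syl.exists_ge hi (zpowers_le.2 W.i_mem)
  have hiT : W.i ∈ T := h1 (mem_zpowers _)
  have htT : W.t ∈ T := W.ii ▸ mul_mem hiT hiT
  refine ⟨T, Syl.of_norm hT.pg le_top (fun P hP h2 _ h3 p hp => ?_), hT.le⟩
  rcases h.cls_t hM (hT.le (conj_mem_of_norm (h3 hp) htT)) with e | ⟨k, hk, e⟩
  · exact hT.ge_of_le (P := P ⊓ W.D0) (hP.to_le inf_le_left) (le_inf h2 hT.le) inf_le_right
      ⟨hp, h.cent_t (mul_inv_eq_iff_eq_mul.1 e)⟩
  · exfalso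
    have h4 := W.comm_t (hT.le (conj_mem_of_norm' (h3 hp) hiT))
    have h5 : k⁻¹ * W.i * k * W.n = W.n * (k⁻¹ * W.i * k) := by
      calc _ = k⁻¹ * W.i * (k * W.n * k⁻¹) * k := by group
        _ = k⁻¹ * p * (p⁻¹ * W.i * p * W.t) * p⁻¹ * k := by rw [← e]; group
        _ = k⁻¹ * (p * W.t * p⁻¹) * W.i * k := by rw [h4]; group
        _ = _ := by rw [e]; group
    obtain ⟨w, hw, e1 | e1⟩ := W.sq_t (mul_mem (mul_mem (inv_mem hk) W.i_mem) hk) (by
      calc _ = k⁻¹ * (W.i * W.i * k) := by group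
        _ = _ := by rw [W.ii, ← W.comm_t hk]; group) <;>
    · rw [e1, W.nK, mul_left_inj, K_eq] at h5
      have h6 : w = 1 ∨ w = ng := by
        first
          | exact h5.imp And.left fun e => by simpa using e.1
          | exact h5.imp And.right fun e => by simpa using e.2
      rcases h6 with rfl | rfl
      · exact W.ng1 (by simpa using hw.symm)
      · exact W.ng1 (hw.symm.trans ng_mul_ng)

theorem Term.conj_into (h : W.Term) (hM : W.Over M) {P : Subgroup G} (hP : IsPGroup 2 P) (hPM : P ≤ M) :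
    ∃ m ∈ M, cj(m, P) ≤ W.D0 := by
  obtain ⟨T, hT, h1⟩ := h.exists_syl hM
  obtain ⟨m, hm, h2⟩ := (hT.mono (h1.trans hM.le) le_top).conj_le hP hPM
  exact ⟨m, hm, h2.trans h1⟩

theorem Term.good_t (h : W.Term) (hM : W.Over M) {g : G} (hg : g * W.t * g⁻¹ ∈ M) : g ∈ M := by
  obtain ⟨m, hm, h1⟩ := h.conj_into hM (isPGroup_zpowers (p := 2) (s := g * W.t * g⁻¹) (by
    rw [pow_two, conj_mul, W.tt]; simp)) (zpowers_le.2 hg)
  have h2 : m * g * W.t * (m * g)⁻¹ ∈ W.D0 := by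
    simpa [mul_assoc] using cj_le_iff.1 h1 _ (mem_zpowers _)
  refine (M.mul_mem_cancel_left hm).1 ?_
  rcases h.cls_t hM h2 with e | ⟨k, hk, e⟩
  · exact hM.le (h.cent_t (mul_inv_eq_iff_eq_mul.1 e))
  · obtain ⟨l, hl, e2⟩ := hM.hn
    refine (M.mul_mem_cancel_left (inv_mem (mul_mem (hM.le hk) hl))).1 (hM.le (h.cent_t ?_))
    calc _ = (k * l)⁻¹ * (m * g * W.t * (m * g)⁻¹) * (m * g) := by group
      _ = _ := by rw [e, ← e2]; group

theorem Term.good_n (h : W.Term) (hM : W.Over M) {e g : G} (he : e ∈ M)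
    (hg : g * (e * W.n * e⁻¹) * g⁻¹ ∈ M) : g ∈ M := by
  obtain ⟨l, hl, e2⟩ := hM.hn
  refine (M.mul_mem_cancel_right (mul_mem he hl)).1 (h.good_t hM ?_)
  rw [← e2] at hg
  simpa [mul_assoc] using hg

/-- Conjugates of `t` generating a 2-group commute. -/
theorem Term.comm_of_four (h : W.Term) (hM : W.Over M) {g : G}
    (h4 : W.t * (g * W.t * g⁻¹) * (W.t * (g * W.t * g⁻¹)) * (W.t * (g * W.t * g⁻¹) * (W.t * (g * W.t * g⁻¹))) = 1) :
    g * W.t * g⁻¹ * W.t = W.t * (g * W.t * g⁻¹) := by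
  have hT : W.Over ⊤ := ⟨le_top, hM.hn.imp fun _ e => ⟨trivial, e.2⟩, hM.hu.imp fun _ e => ⟨trivial, e.2⟩⟩
  set s := g * W.t * g⁻¹ with hs
  have ss : s * s = 1 := by rw [hs, conj_mul, W.tt]; simp
  have p1 : IsPGroup 2 (zpowers (W.t * s)) := IsPGroup.of_card_dvd_pow (n := 2) (by
    rw [Nat.card_zpowers]
    exact orderOf_dvd_of_pow_eq_one (by rw [← h4]; simp [pow_succ, mul_assoc]))
  have p2 : IsPGroup 2 (zpowers (W.t * s) ⊔ zpowers W.t : Subgroup G) :=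
    pg_sup' p1 (isPGroup_zpowers (by rw [pow_two, W.tt])) (zpowers_le.2 (mem_norm_of_cj_le
      (cj_le_iff.2 fun a ha => by
        rw [Inv.inverts_of_mem_zpowers (Inv.left_inverts_mul W.tt ss) ha]; exact inv_mem ha)))
  obtain ⟨m, -, h1⟩ := h.conj_into hT p2 le_top
  have ht : W.t ∈ zpowers (W.t * s) ⊔ zpowers W.t := mem_sup_right (mem_zpowers _)
  have h2 := cj_le_iff.1 h1 _ ht
  have h3 := cj_le_iff.1 h1 s ((mul_mem_cancel_left ht).1 (mem_sup_left (mem_zpowers _)))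
  have e0 : m * s * m⁻¹ = m * g * W.t * (m * g)⁻¹ := by rw [hs]; group
  suffices e : m * s * m⁻¹ * (m * W.t * m⁻¹) = m * W.t * m⁻¹ * (m * s * m⁻¹) by
    rw [conj_mul, conj_mul] at e
    simpa using e
  have h5 : m * W.t * m⁻¹ * (m * s * m⁻¹) * (m * W.t * m⁻¹ * (m * s * m⁻¹)) *
      (m * W.t * m⁻¹ * (m * s * m⁻¹) * (m * W.t * m⁻¹ * (m * s * m⁻¹))) = 1 := by
    simp only [conj_mul]; rw [h4]; simp
  rcases h.cls_t hM h2 with e1 | ⟨k, hk, e1⟩
  · rw [e1]; exact W.comm_t h3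
  rcases h.cls_t hM (e0 ▸ h3) with e2 | ⟨l, hl, e2⟩
  · rw [e0, e2]; exact (W.comm_t h2).symm
  rw [e0, e1, e2] at h5 ⊢
  obtain ⟨a, e3⟩ : ∃ a, k⁻¹ * l * W.n * (k⁻¹ * l)⁻¹ = W.K a a⁻¹ * W.n := by
    obtain ⟨a, b, e | e⟩ := mul_mem (inv_mem hk) hl <;> rw [e]
    · exact ⟨_, W.conj_n a b⟩
    · exact ⟨_, by rw [← W.conj_n a b]; group⟩
  have e4 : l * W.n * l⁻¹ = k * (W.K a a⁻¹ * W.n) * k⁻¹ := by rw [← e3]; group
  rw [e4] at h5 ⊢
  have e5 : W.n * (W.K a a⁻¹ * W.n) = W.K a⁻¹ a := by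
    rw [← mul_assoc, W.nK, mul_assoc, W.nn, mul_one]
  simp only [conj_mul] at h5 ⊢
  rw [conj_eq_one_iff, e5, W.mul, W.mul, W.ker] at h5
  have h6 : a * a * (a * a) = 1 := (h5.resolve_right fun e => W.fd.no8 a e.2).2
  rw [e5, mul_assoc (W.K _ _), W.nn, mul_one]
  congr 2
  rcases eq_ng_of_sq W.fd.two h6 with e | e
  · rw [inv_eq_of_mul_eq_one_right e]
  · rw [inv_of_sq_ng e, K_eq, mul_assoc, ng_mul_ng, mul_one]
    exact Or.inr ⟨rfl, rfl⟩

theorem Kn_u (a b : SL(2, F)) : W.K a b * W.n * W.u = W.K a b * W.t := by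
  rw [u, mul_assoc, ← mul_assoc W.n, W.nn, one_mul]

theorem u_Kn (a b : SL(2, F)) : W.u * (W.K a b * W.n) = W.K b a * W.t := by
  rw [u, ← t_n, mul_assoc, ← mul_assoc W.n, W.nK, mul_assoc, W.nn, mul_one, t_K]

theorem Term.cent_u (h : W.Term) (hM : W.Over M) {g : G} (hg : g * W.u = W.u * g) : g ∈ M := by
  have hz : ∀ {y}, y ∈ zpowers W.u ↔ y = 1 ∨ y = W.u := mem_zpowers_two W.uu'
  have hC : ∀ {y}, y ∈ centralizer {W.u} ↔ y * W.u = W.u * y := mem_centralizer_singleton_iff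
  have huM : zpowers W.u ≤ M := zpowers_le.2 (hM.le W.u_mem)
  have htu : W.t * W.u = W.n := by rw [u, ← mul_assoc, t_n, mul_assoc, W.tt, mul_one]
  have hut : W.u * W.t = W.n := by rw [u, mul_assoc, W.tt, mul_one]
  have hin : ∀ a, a * a = ng → W.K a a⁻¹ * W.n * W.u = W.u * (W.K a a⁻¹ * W.n) := fun a e => by
    rw [Kn_u, u_Kn, K_t, K_t, inv_of_sq_ng e, K_mul_ng, mul_assoc, ng_mul_ng, mul_one]
  have hsq : ∀ a, W.K a a⁻¹ * W.n * (W.K a a⁻¹ * W.n) = 1 := fun a => by rw [Kn_Kn]; simp [K_one]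
  have gd : ∀ a y, y * (W.K a a⁻¹ * W.n) * y⁻¹ * (W.K a a⁻¹ * W.n)⁻¹ ∈ zpowers W.u → y ∈ M :=
    fun a y e => h.good_n hM (hM.le (W.K_mem a 1)) (by
      rw [← W.conj_n']
      exact (M.mul_mem_cancel_right (inv_mem (hM.le (mul_mem (W.K_mem _ _) W.n_mem)))).1 (huM e))
  have hq : (qi : SL(2, F))⁻¹ = qi * ng := inv_of_sq_ng qi_sq
  have hj : (qj : SL(2, F))⁻¹ = qj * ng := inv_of_sq_ng qj_sq
  have hji : (qj : SL(2, F)) * qi = qi * qj * ng := by
    rw [mul_inv_eq_iff_eq_mul.1 W.fd.qj_qi, hq, mul_assoc, ng_comm, mul_assoc]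
  have hab : W.K qi qi⁻¹ * W.n * (W.K qj qj⁻¹ * W.n) = W.K (qi * qj) (qi * qj) := by
    rw [Kn_Kn, hq, hj, ← mul_assoc, mul_assoc _ ng, ng_comm, ← mul_assoc, K_mul_ng]
  have hba : W.K qj qj⁻¹ * W.n * (W.K qi qi⁻¹ * W.n) = W.K (qi * qj) (qi * qj) := by
    rw [Kn_Kn, hq, hj, ← mul_assoc, mul_assoc _ ng, ng_comm, ← mul_assoc, K_mul_ng, hji, K_mul_ng]
  have hk : W.K (qi * qj) (qi * qj) * W.u = W.K (qi * qj) (qi * qj)⁻¹ * W.n := by
    rw [u, ← t_n, ← mul_assoc, K_t', inv_of_sq_ng (g := qi * qj)]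
    calc _ = qi * (qj * qi * qj⁻¹) * (qj * qj) := by group
      _ = _ := by rw [W.fd.qj_qi, qj_sq]; simp
  refine zl (Y := centralizer {W.u}) (N := zpowers W.u) (τ := W.t) (a := W.K qi qi⁻¹ * W.n)
    (b := W.K qj qj⁻¹ * W.n) (norm_of_cent (cent_comm (zpowers_le.2 (mem_cent.2 fun y hy => hC.1 hy))))
    huM (hC.2 (htu.trans hut.symm)) (hC.2 (hin _ qi_sq)) (hC.2 (hin _ qj_sq)) (W.tt ▸ one_mem _)
    (fun y hy e => ?_) (fun y _ e => h.good_t hM
      ((M.mul_mem_cancel_right (inv_mem (hM.le W.t_mem))).1 (huM e)))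
    (by rw [hsq]; exact one_mem _) (by rw [hsq]; exact one_mem _)
    (by rw [mul_assoc, ← mul_inv_rev, hab, hba, mul_inv_cancel]; exact one_mem _) ?_ (hC.2 hg)
  · have hyu := hC.1 hy
    have ss : y * W.t * y⁻¹ * (y * W.t * y⁻¹) = 1 := by rw [conj_mul, W.tt]; simp
    rw [t_inv, inv_eq_of_mul_eq_one_right ss, mul_assoc _ W.t] at e
    have h1 := h.comm_of_four hM (g := y) (by
      rcases hz.1 e with e1 | e1 <;> rw [e1]
      exacts [one_mul _, W.uu'])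
    have h2 : y * W.t * y⁻¹ * W.u = y * W.n * y⁻¹ := by
      rw [← htu, ← conj_mul, hyu, mul_inv_cancel_right]
    have h3 : W.u * (y * W.t * y⁻¹) = y * W.n * y⁻¹ := by
      rw [← hut, ← conj_mul, hyu, mul_inv_cancel_right]
    have hD := h.cent_t h1
    obtain ⟨l, -, hl⟩ := hM.hn
    rcases W.inv_cls hD ss with e1 | e1 | ⟨a, b, ha, hb, e1⟩ | ⟨a, e1 | e1⟩
    · exact absurd (conj_eq_one_iff.1 e1) W.t_ne
    · rw [e1]; simp
    · obtain ⟨k, -, e2⟩ := W.conj_x ha hb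
      exact (h.not_conj (k⁻¹ * y) (by
        calc _ = k⁻¹ * (y * W.t * y⁻¹) * k := by group
          _ = _ := by rw [e1, e2]; group)).elim
    · have h4 : W.K a a⁻¹ * W.t = W.K a⁻¹ a * W.t := by
        have := h2.trans h3.symm
        rwa [e1, Kn_u, u_Kn] at this
      rw [mul_left_inj, K_eq] at h4
      rcases h4 with ⟨h4, -⟩ | ⟨-, h4⟩
      · have h5 : W.K a a⁻¹ = 1 := by
          rcases eq_ng_of_sq W.fd.two (eq_inv_iff_mul_eq_one.1 h4) with rfl | rfl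
          · simp [K_one]
          · rw [ng_inv, K_ng]
        rw [e1, h5, one_mul, t_inv]
        exact mem_zpowers _
      · have h5 : a * a = ng := by
          rw [inv_eq_iff_mul_eq_one, ← mul_assoc, mul_eq_one_iff_eq_inv, ng_inv] at h4
          exact h4
        obtain ⟨k, -, e2⟩ := W.conj_x h5 h5
        refine (h.not_conj (k⁻¹ * y * l) ?_).elim
        calc _ = k⁻¹ * (y * (l * W.t * l⁻¹) * y⁻¹) * k := by group
          _ = k⁻¹ * W.K a a * k := by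
            rw [hl, ← h2, e1, Kn_u, K_t', h4, mul_assoc a, ng_mul_ng, mul_one]
          _ = _ := by rw [e2]; group
    · obtain ⟨r, -, hr⟩ := hM.hu
      refine (h.not_conj (r⁻¹ * (W.K a 1)⁻¹ * y) ?_).elim
      calc _ = r⁻¹ * (W.K a 1)⁻¹ * (y * W.t * y⁻¹) * W.K a 1 * r := by group
        _ = _ := by rw [e1, conj_u', ← hr]; group
  · rintro y hy (e | e | e)
    · exact gd _ y e
    · exact gd _ y e
    · refine gd (qi * qj) y ?_
      rw [hab] at e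
      rw [← hk]
      convert e using 1
      calc _ = y * W.K (qi * qj) (qi * qj) * y⁻¹ * (y * W.u * y⁻¹) * W.u⁻¹ * (W.K (qi * qj) (qi * qj))⁻¹ := by
            group
        _ = _ := by rw [hC.1 hy]; group

theorem Term.eq_top (h : W.Term) (hM : W.Over M) (g : G) : g ∈ M := by
  have tr : ∀ {k s : G}, k ∈ M → (∀ y, y * s = s * y → y ∈ M) →
      ∀ y, y * (k * s * k⁻¹) = k * s * k⁻¹ * y → y ∈ M := fun {k s} hk hs y e =>
    (M.mul_mem_cancel_left (inv_mem hk)).1 ((M.mul_mem_cancel_right hk).1 (hs _ (by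
      calc _ = k⁻¹ * (y * (k * s * k⁻¹)) * k := by group
        _ = _ := by rw [e]; group)))
  have ct : ∀ y, y * W.t = W.t * y → y ∈ M := fun y e => hM.le (h.cent_t e)
  have cu : ∀ y, y * W.u = W.u * y → y ∈ M := fun y e => h.cent_u hM e
  obtain ⟨l, hl, el⟩ := hM.hn
  obtain ⟨r, hr, er⟩ := hM.hu
  have cn : ∀ y, y * W.n = W.n * y → y ∈ M := el ▸ tr hl ct
  have cx : ∀ y, y * W.x = W.x * y → y ∈ M := by
    have := tr (inv_mem hr) cu
    rw [← er] at this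
    simpa [mul_assoc] using this
  obtain ⟨c, h1, h2, h3, h4, -⟩ := dih_zero (a := W.x) (b := g * W.t * g⁻¹) W.xx
    (by rw [conj_mul, W.tt]; simp) fun e => by
      obtain ⟨d, hd⟩ := isConj_iff.1 e
      refine h.not_conj (d⁻¹ * g) ?_
      calc _ = d⁻¹ * (g * W.t * g⁻¹) * d := by group
        _ = _ := by rw [← hd]; group
  obtain ⟨m, hm, h5⟩ := h.conj_into hM (isPGroup_zpowers (p := 2) (s := c) (by rwa [pow_two]))
    (zpowers_le.2 (cx c h3))
  have h6 : ∀ y, y * (m * c * m⁻¹) = m * c * m⁻¹ * y → y ∈ M := by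
    rcases W.inv_cls' (cj_le_iff.1 h5 _ (mem_zpowers _)) (by rw [conj_mul, h2]; simp) with
      e | e | ⟨k, hk, e | e | e⟩
    · exact absurd (conj_eq_one_iff.1 e) h1
    all_goals rw [e]
    exacts [ct, tr (hM.le hk) cx, tr (hM.le hk) cn, tr (hM.le hk) cu]
  have h7 := tr (inv_mem hm) h6 (g * W.t * g⁻¹) (by simpa [mul_assoc] using h4.symm)
  exact h.good_t hM h7

end Wr

end Cfsg.Agent.Hay
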